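/-
P15, Ree groups: counting pairs of involutions.
-/
import Cfsg.Agent.P7.Final

set_option autoImplicit false
set_option linter.unusedSectionVars false

namespace Cfsg.Agent.P15.Re

open Subgroup Cfsg Cfsg.Agent Cfsg.Agent.FT
open Cfsg.Agent.P6 (Inv)

universe u

variable {G : Type u} [Group G] [Finite G]

/-- The pairs of involutions with product in `S`. -/
def Pr (S : Set G) : Set (G × G) := {p | Inv p.1 ∧ Inv p.2 ∧ p.1 * p.2 ∈ S}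

noncomputable def pr (S : Set G) : ℕ := (Pr S).ncard

theorem pr_le_add {S T R : Set G} (h : ∀ j j' : G, Inv j → Inv j' → j * j' ∈ S → j * j' ∈ T ∪ R) :
    pr S ≤ pr T + pr R :=
  (Set.ncard_le_ncard fun p hp => (h _ _ hp.1 hp.2.1 hp.2.2).imp (fun e => ⟨hp.1, hp.2.1, e⟩)
    fun e => ⟨hp.1, hp.2.1, e⟩).trans (Set.ncard_union_le _ _)

theorem pr_mono {S T : Set G} (h : ∀ j j' : G, Inv j → Inv j' → j * j' ∈ S → j * j' ∈ T) :
    pr S ≤ pr T := Set.ncard_le_ncard fun _ hp => ⟨hp.1, hp.2.1, h _ _ hp.1 hp.2.1 hp.2.2⟩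

theorem pr_univ : pr (Set.univ : Set G) = {j : G | Inv j}.ncard * {j : G | Inv j}.ncard := by
  rw [← Set.ncard_prod]
  exact congrArg Set.ncard (Set.ext fun p => ⟨fun h => ⟨h.1, h.2.1⟩, fun h => ⟨h.1, h.2, trivial⟩⟩)

theorem pr_one : pr ({1} : Set G) ≤ {j : G | Inv j}.ncard :=
  Set.ncard_le_ncard_of_injOn Prod.fst (fun _ hp => hp.1) fun p hp p' hp' e => Prod.ext e (by
    rw [← mul_right_inj p.1, hp.2.2, e, hp'.2.2])

theorem pr_sub {Y : Set G} {B : Subgroup G}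
    (h : ∀ j j' : G, Inv j → Inv j' → j * j' ∈ Y → j ∈ B ∧ j' ∈ B) :
    pr Y ≤ {j | j ∈ B ∧ Inv j}.ncard * {j | j ∈ B ∧ Inv j}.ncard := by
  rw [← Set.ncard_prod]
  exact Set.ncard_le_ncard fun p hp =>
    ⟨⟨(h _ _ hp.1 hp.2.1 hp.2.2).1, hp.1⟩, (h _ _ hp.1 hp.2.1 hp.2.2).2, hp.2.1⟩

theorem inverts {j j' : G} (h : Inv j) (h' : Inv j') : j * (j * j') * j = (j * j')⁻¹ := by
  rw [h.mul_cancel_left, mul_inv_rev, h.inv_eq, h'.inv_eq]

theorem pr_conj {M : Subgroup G} {Y : Set G} (hM : ∀ m ∈ M, ∀ y ∈ Y, m * y * m⁻¹ ∈ Y) :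
    𝐨(M) * pr (classSupp Y ⊤) ≤ Nat.card G * pr Y := by
  have h1 : ∀ x : G, ∃ g : G, x ∈ classSupp Y ⊤ → g⁻¹ * x * g ∈ Y := fun x => by
    by_cases h : x ∈ classSupp Y ⊤
    · obtain ⟨y, hy, g, -, rfl⟩ := h
      exact ⟨g, fun _ => by simpa [mul_assoc] using hy⟩
    · exact ⟨1, fun e => absurd e h⟩
  choose c hc using h1
  rw [show 𝐨(M) = (M : Set G).ncard from rfl, ← Set.ncard_univ G, pr, pr, ← Set.ncard_prod,
    ← Set.ncard_prod]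
  refine Set.ncard_le_ncard_of_injOn (fun z => (c (z.2.1 * z.2.2) * z.1,
    (c (z.2.1 * z.2.2) * z.1)⁻¹ * z.2.1 * (c (z.2.1 * z.2.2) * z.1),
    (c (z.2.1 * z.2.2) * z.1)⁻¹ * z.2.2 * (c (z.2.1 * z.2.2) * z.1))) (fun z hz => ⟨trivial,
      hz.2.1.conj' _, hz.2.2.1.conj' _, ?_⟩) fun z _ z' _ e => ?_
  · convert hM _ (inv_mem hz.1) _ (hc _ hz.2.2.2) using 1
    group
  · simp only [Prod.mk.injEq] at e
    obtain ⟨e1, e2, e3⟩ := e
    rw [e1, mul_left_inj, mul_right_inj] at e2 e3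
    rw [e2, e3, mul_right_inj] at e1
    exact Prod.ext e1 (Prod.ext e2 e3)

theorem pr_le {Y : Set G} {c : ℕ} (h : ∀ y ∈ Y, 𝐨(𝐂[y]) ≤ c) : pr Y ≤ c * Y.ncard := by
  classical
  rw [pr, Set.ncard_eq_toFinset_card, Set.ncard_eq_toFinset_card]
  refine Finset.card_le_mul_card_image_of_maps_to (f := fun p : G × G => p.1 * p.2)
    (fun p hp => by simpa using ((Set.Finite.mem_toFinset _).1 hp).2.2) c fun y hy => ?_
  refine (Nat.eq_zero_or_pos _).elim (fun e => e.trans_le c.zero_le) fun e => ?_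
  obtain ⟨p, hp⟩ := Finset.card_pos.1 e
  rw [← Set.ncard_coe_finset]
  simp only [Finset.mem_filter, Set.Finite.mem_toFinset] at hp
  refine le_trans (Set.ncard_le_ncard_of_injOn (t := ((𝐂[y] : Subgroup G) : Set G))
    (fun z : G × G => p.1 * z.1) (fun z hz => ?_) fun z hz z' hz' e => ?_)
    (show _ ≤ c from h y (by simpa using hy))
  all_goals simp only [Finset.coe_filter, Set.Finite.mem_toFinset, Set.mem_setOf_eq] at *
  · have h1 := inverts hp.1.1 hp.1.2.1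
    have h2 := inverts hz.1.1 hz.1.2.1
    rw [hp.2] at h1
    rw [hz.2] at h2
    refine mem_cent1_iff_conj.2 ?_
    calc _ = p.1 * (z.1 * y * z.1) * p.1 := by
          rw [mul_inv_rev, hp.1.1.inv_eq, hz.1.1.inv_eq]; simp only [mul_assoc]
      _ = y := by rw [h2, ← h1, mul_assoc p.1 y, hp.1.1.mul_cancel_left, hp.1.1.mul_cancel_right]
  · rw [mul_right_inj] at e
    exact Prod.ext e (by rw [← mul_right_inj z.1, hz.2, e, hz'.2])

theorem pr_type {W M : Subgroup G} (hM : M ≤ 𝐍(W)) {c : ℕ}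
    (h : ∀ y ∈ W, y * y ≠ 1 → 𝐨(𝐂[y]) ≤ c) :
    𝐨(M) * pr (classSupp {y | y ∈ W ∧ y * y ≠ 1} ⊤) ≤
      Nat.card G * (c * {y | y ∈ W ∧ y * y ≠ 1}.ncard) :=
  (pr_conj (Y := {y | y ∈ W ∧ y * y ≠ 1}) fun m hm y hy =>
    ⟨(mem_normalizer_iff.1 (hM hm) y).1 hy.1, fun e => hy.2 (by
    rwa [conj_mul, conj_eq_one_iff] at e)⟩).trans
    (Nat.mul_le_mul_left _ (pr_le fun y hy => h y hy.1 hy.2))

theorem pr_cc {A : Subgroup G} (hA : ∀ a ∈ A, a ≠ 1 → 𝐂[a] = A) {e : ℕ}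
    (he : e * 𝐨(A) ≤ 𝐨(𝐍(A))) :
    e * pr (classSupp (sharp A) ⊤) + Nat.card G ≤ Nat.card G * 𝐨(A) := by
  have h1 := (pr_conj (M := 𝐍(A)) (Y := sharp A) fun m hm y hy =>
    ⟨(mem_normalizer_iff.1 hm y).1 hy.1, fun e => hy.2 (conj_eq_one_iff.1 e)⟩).trans
    (Nat.mul_le_mul_left _ (pr_le (c := 𝐨(A)) fun y hy => (hA y hy.1 hy.2).symm ▸ le_rfl))
  rw [ncard_sharp] at h1
  have h2 := (Nat.mul_le_mul_right _ he).trans h1
  obtain ⟨n, hn⟩ : ∃ n, 𝐨(A) = n + 1 := ⟨_, (Nat.succ_pred_eq_of_pos Nat.card_pos).symm⟩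
  rw [hn, Nat.add_sub_cancel] at h2
  rw [hn, mul_add, mul_one, add_le_add_iff_right]
  exact Nat.le_of_mul_le_mul_left (c := n + 1) (by linarith) n.succ_pos

theorem two_mul_le {A B : Subgroup G} (h : A ≤ B) {j : G} (hj : j ∈ B) (h1 : j ∉ A) :
    2 * 𝐨(A) ≤ 𝐨(B) := by
  rw [← H1.card_mul_relIndex h, mul_comm]
  refine Nat.mul_le_mul_left _ ?_
  have h2 := L.relIndex_ne_zero A B
  have h3 : A.relIndex B ≠ 1 := fun e => h1 (relIndex_eq_one.1 e hj)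
  omega

/-- The elements with centralizer of order dividing `c`. -/
def Zc (G : Type u) [Group G] (c : ℕ) : Set G := {x | x ≠ 1 ∧ 𝐨(𝐂[x]) ∣ c}

section
variable {N : ℕ} (oN : Odd N) (hN : ∀ y : G, y ≠ 1 → orderOf y ∣ N → 𝐨(𝐂[y]) ∣ N)
include oN hN

theorem cc {x j : G} (hx : x ∈ Zc G N) (hj : Inv j) (h : j * x * j = x⁻¹) :
    j ∈ 𝐍(𝐂[x]) ∧ j ∉ 𝐂[x] ∧ (∀ a ∈ 𝐂[x], j * a * j = a⁻¹) ∧ ∀ a ∈ 𝐂[x], a ≠ 1 → 𝐂[a] = 𝐂[x] := by
  have key : ∀ x ∈ Zc G N, j * x * j = x⁻¹ → j ∈ 𝐍(𝐂[x]) ∧ ∀ a ∈ 𝐂[x], j * a * j = a⁻¹ :=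
    fun x hx h => by
    have h1 := P7.Ax.norm_cent1 (P7.Ax.norm_zp_of_inv hj h)
    exact ⟨h1, L.inverts_of_fpf hj.sq h1 fun a ha e => by_contra fun a1 =>
      hj.not_mem_of_odd (oN.of_dvd_nat (hN a a1 ((orderOf_dvd_card_of_mem ha).trans hx.2)))
        (mem_cent1_iff_commute.2 e.symm)⟩
  obtain ⟨h1, h2⟩ := key x hx h
  refine ⟨h1, hj.not_mem_of_odd (oN.of_dvd_nat hx.2), h2, fun a ha a1 => le_antisymm
    (fun b hb => mem_cent1.2 (L.commute_of_inverts hj.sq (key a ⟨a1, hN a a1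
      ((orderOf_dvd_card_of_mem ha).trans hx.2)⟩ (h2 a ha)).2 (mem_cent1_comm.1 ha) hb))
    fun b hb => mem_cent1.2 (L.commute_of_inverts hj.sq h2 ha hb)⟩

theorem step {c : ℕ} (hc : c ∣ N) : pr (Zc G c) = 0 ∨ ∃ (A : Subgroup G) (b : ℕ),
    c = 𝐨(A) * b ∧ 1 < 𝐨(A) ∧ (∀ a ∈ A, a ≠ 1 → 𝐂[a] = A) ∧ 2 * 𝐨(A) ≤ 𝐨(𝐍(A)) ∧
      pr (Zc G c) ≤ pr (classSupp (sharp A) ⊤) + pr (Zc G b) := by
  rcases (Pr (Zc G c)).eq_empty_or_nonempty with e | ⟨p, h1, h2, h3, b, hb⟩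
  · exact Or.inl (by rw [pr, e, Set.ncard_empty])
  obtain ⟨h4, h5, -, h6⟩ := cc oN hN ⟨h3, (Dvd.intro _ hb.symm).trans hc⟩ h1 (inverts h1 h2)
  refine Or.inr ⟨_, b, hb, (one_lt_card_iff_ne_bot _).2 fun e => h3 (mem_bot.1
    (e ▸ self_mem_cent1 _)), h6, two_mul_le (le_norm_self _) h4 h5,
    pr_le_add fun j j' hj hj' h => ?_⟩
  by_cases h7 : 𝐨(𝐂[p.1 * p.2]).Coprime 𝐨(𝐂[j * j'])
  · exact Or.inr ⟨h.1, h7.symm.dvd_of_dvd_mul_left (hb ▸ h.2)⟩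
  obtain ⟨g, hg⟩ := L.exists_conj_of_not_coprime h6
    (cc oN hN ⟨h.1, h.2.trans hc⟩ hj (inverts hj hj')).2.2.2 h7
  obtain ⟨a, ha, e⟩ : j * j' ∈ (𝐂[p.1 * p.2]).map (MulAut.conj g).toMonoidHom :=
    hg ▸ self_mem_cent1 _
  exact Or.inl ⟨a, ⟨ha, fun e' => h.1 (by rw [← e, e', map_one])⟩, g, mem_top g, e.symm⟩

theorem half (c : ℕ) (hc : c ∣ N) : 2 * pr (Zc G c) + Nat.card G ≤ Nat.card G * c := by
  induction c using Nat.strong_induction_on with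
  | _ c ih =>
  have c0 := (oN.of_dvd_nat hc).pos
  rcases step oN hN hc with e | ⟨A, b, rfl, h1, h2, h3, h4⟩
  · rw [e, mul_zero, zero_add]; exact Nat.le_mul_of_pos_right _ c0
  have b0 := Nat.pos_of_mul_pos_left c0
  have h5 := ih b (by nlinarith) ((Dvd.intro_left _ rfl).trans hc)
  have h6 := pr_cc h2 h3
  have h7 : Nat.card G * (𝐨(A) + b) ≤ Nat.card G * (𝐨(A) * b + 1) :=
    Nat.mul_le_mul_left _ (by nlinarith)
  linarith

theorem sixth (h7 : ∀ r : ℕ, r.Prime → r ∣ N → 7 ≤ r) {b m : ℕ} (hb : b ∣ N)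
    (hG : Nat.card G = b * m) (hm : m ≡ 6 [MOD b]) :
    6 * pr (Zc G b) + Nat.card G ≤ Nat.card G * b := by
  have b0 := (oN.of_dvd_nat hb).pos
  have ge : ∀ c, c ∣ N → c ≠ 1 → 7 ≤ c := fun c hc c1 =>
    (h7 _ (Nat.minFac_prime c1) ((Nat.minFac_dvd c).trans hc)).trans
      (Nat.minFac_le (oN.of_dvd_nat hc).pos)
  rcases step oN hN hb with e | ⟨A, c, rfl, h1, h2, h3, h4⟩
  · rw [e, mul_zero, zero_add]; exact Nat.le_mul_of_pos_right _ b0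
  have h5 := half oN hN c ((Dvd.intro_left _ rfl).trans hb)
  by_cases c1 : c = 1
  · subst c1
    obtain ⟨r, hr, rA⟩ := Nat.exists_prime_and_dvd h1.ne'
    haveI := Fact.mk hr
    obtain ⟨S, hS, S1⟩ := L.exists_sylow_le_of_centralizer_eq h2 rA
    obtain ⟨z, hz, z1⟩ := (bot_or_exists_ne_one _).resolve_left S1
    have h6 : A ≤ 𝐍((S : Subgroup G)) := le_trans (fun a ha => mem_cent.2 fun s hs => by
      by_cases s1 : s = 1
      · simp [s1]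
      · exact mem_cent1.1 ((h2 s (hS hs) s1).ge ha)) (cent_le_norm _)
    have h8 : 𝐍((S : Subgroup G)) ≤ 𝐍(A) := fun g hg => conj_eq_self_iff.1 (by
      rw [← h2 z (hS hz) z1, ← cent1_conj, h2 z (hS hz) z1]
      exact h2 _ (hS ((mem_normalizer_iff.1 hg z).1 hz)) fun e => z1 (conj_eq_one_iff.1 e))
    have h9 := card_sylow_modEq_one r G
    rw [S.card_eq_index_normalizer] at h9
    have h10 := card_mul_index 𝐍((S : Subgroup G))
    rw [← H1.card_mul_relIndex h6, hG, mul_one, mul_assoc,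
      Nat.mul_right_inj (card_ne_zero A)] at h10
    have h11 := (h9.mul_left (A.relIndex 𝐍((S : Subgroup G)))).symm.trans
      (h10 ▸ hm.of_dvd (by simpa using rA))
    have h12 := h7 r hr (rA.trans (by simpa using hb))
    rw [mul_one, Nat.ModEq, Nat.mod_eq_of_lt (show 6 < r from h12)] at h11
    have h13 := pr_cc h2 (e := 6) (le_trans (by
      rw [← H1.card_mul_relIndex h6, mul_comm]
      exact Nat.mul_le_mul_left _ (h11 ▸ Nat.mod_le _ _)) (card_le_of_le h8))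
    linarith
  have h6 := pr_cc h2 h3
  have h8 := ge c ((Dvd.intro_left _ rfl).trans hb) c1
  have h9 := ge _ ((Dvd.intro _ rfl).trans hb) h1.ne'
  have h10 : Nat.card G * (3 * 𝐨(A) + 3 * c) ≤ Nat.card G * (𝐨(A) * c + 5) :=
    Nat.mul_le_mul_left _ (by nlinarith)
  linarith

end

end Cfsg.Agent.P15.Re
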