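/-
P15, Ree groups: the centralizers and the pairs of involutions of each type.
-/
import Cfsg.Agent.P15.Ree1

set_option autoImplicit false
set_option linter.unusedSectionVars false

namespace Cfsg.Agent.P15.Re

open Subgroup Cfsg Cfsg.Agent Cfsg.Agent.FT Cfsg.Agent.P7 Cfsg.Agent.P7.Ax
open Cfsg.Agent.P5 (V4 Tri)
open Cfsg.Agent.P6 (Inv Od odd_Od Od_normal)

universe u

variable {G : Type u} [Group G] [Finite G]

theorem exists_pw {x : G} {r : ℕ} (hr : r.Prime) (h : r ∣ orderOf x) :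
    ∃ u ∈ zpowers x, orderOf u = r ∧ 𝐂[x] ≤ 𝐂[u] := by
  obtain ⟨u, hu, e⟩ := exists_mem_orderOf_eq_prime hr (Nat.card_zpowers x ▸ h)
  exact ⟨u, hu, e, cent_zpowers x ▸ cent_le_cent1 hu⟩

theorem into {H : Subgroup G} {w : G} (hr : (orderOf w).Prime) (h : ¬ orderOf w ∣ H.index) :
    ∃ g, g * w * g⁻¹ ∈ H := by
  obtain ⟨S, hS⟩ := exists_isSyl hr H
  obtain ⟨g, -, hg⟩ := (hS.trans hr le_top (by rwa [relIndex_top_right])).exists_conj_le hr
    (pg_zp rfl) le_top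
  exact ⟨g, hS.le (hg (conj_mem_conj (mem_zpowers w) g))⟩

theorem mem_cl {Y : Set G} {x g : G} (h : g * x * g⁻¹ ∈ Y) : x ∈ classSupp Y ⊤ :=
  ⟨_, h, g⁻¹, mem_top _, by group⟩

theorem sq_ne {x g : G} (h : x * x ≠ 1) : g * x * g⁻¹ * (g * x * g⁻¹) ≠ 1 := by
  rwa [conj_mul, Ne, conj_eq_one_iff]

theorem ncard_le_sub {A B : Subgroup G} (h : A ≤ B) {Y : Set G} (hY : ∀ y ∈ Y, y ∈ B ∧ y ∉ A) :
    Y.ncard ≤ 𝐨(B) - 𝐨(A) :=
  (Set.ncard_le_ncard (t := (B : Set G) \ A) hY).trans (Set.ncard_diff h).le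

variable {t s s0 : G} {L U : Subgroup G} {q : ℕ}

section
variable (r : Ree t L U q)
include r

theorem three_q : 3 ∣ q := by
  obtain ⟨n, hn⟩ := r.pow
  exact hn ▸ dvd_pow_self 3 (by rintro rfl; have := r.big; omega)

theorem pU : IsPGroup 3 U := by
  obtain ⟨n, hn⟩ := r.pow
  exact isPGroup_of_card_eq (by rw [r.cardU, hn, ← pow_mul])

theorem sylU : IsSyl 3 U ⊤ := ⟨le_top, pU r, fun h => by
  have h1 := card_mul_index U
  have h2 := three_q r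
  have h3 := r.big
  rw [r.cardU, r.card, mul_assoc, Nat.mul_right_inj (by positivity)] at h1
  rw [relIndex_top_right, h1] at h
  have h4 := h2.trans (dvd_pow_self q three_ne_zero)
  rcases Nat.prime_three.dvd_mul.1 h with h | h <;> omega⟩

theorem mem_U {u : G} (hu : u ∈ 𝐍(U)) (h : orderOf u = 3) : u ∈ U :=
  (sylU r).le_of_norm Nat.prime_three (pg_zp h) le_top (zpowers_le.2 hu) (mem_zpowers u)

theorem ti {u g : G} (hu : u ∈ U) (u1 : u ≠ 1) (hg : g * u * g⁻¹ ∈ U) : g ∈ 𝐍(U) := by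
  have p3 := Nat.prime_three
  have h1 := pg_cj (pU r) g
  obtain ⟨z, hz, z1⟩ := (bot_or_exists_ne_one _).resolve_left (center_ne_bot
    (isNilpotent_of_isPGroup p3 h1) fun e => u1 (conj_eq_one_iff.1
      (mem_bot.1 (e ▸ conj_mem_conj hu g))))
  have h2 : z ∈ U := (sylU r).le_of_norm p3 (h1.to_le (zpowers_le.2 hz.1)) le_top (zpowers_le.2
    (r.ti _ hg (mt conj_eq_one_iff.1 u1) (cent_le_cent1 (conj_mem_conj hu g) hz.2)))
    (mem_zpowers z)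
  exact mem_norm_of_conj_le ((sylU r).le_of_norm p3 h1 le_top
    ((mem_cent_iff_cent1.1 hz.2).trans (r.ti z h2 z1)))

theorem exists_three {u : G} (h : orderOf u = 3) : ∃ g, g * u * g⁻¹ ∈ U ∧ 𝐂[u] ^ᵍ g ≤ 𝐍(U) := by
  obtain ⟨g, -, hg⟩ := (sylU r).exists_conj_le Nat.prime_three (pg_zp h) le_top
  have h1 := hg (conj_mem_conj (mem_zpowers u) g)
  exact ⟨g, h1, cent1_conj u g ▸ r.ti _ h1 (mt conj_eq_one_iff.1
    (ne_one_of_prime (h ▸ Nat.prime_three)))⟩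

theorem cent3 {u : G} (h : orderOf u = 3) : 𝐨(𝐂[u]) ∣ q ^ 3 * (q - 1) := by
  obtain ⟨g, -, hg⟩ := exists_three r h
  exact r.cardB ▸ card_conj 𝐂[u] g ▸ FT.card_dvd_of_le hg

theorem cl3 {x : G} (h : 3 ∣ orderOf x) : x ∈ classSupp {y | y ∈ 𝐍(U) ∧ 3 ∣ orderOf y} ⊤ := by
  obtain ⟨u, -, h1, h2⟩ := exists_pw Nat.prime_three h
  obtain ⟨g, -, hg⟩ := exists_three r h1
  exact mem_cl ⟨hg (conj_mem_conj (h2 (self_mem_cent1 x)) g), by rwa [orderOf_cj]⟩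

theorem pr3 : q ^ 3 * (q - 1) * pr (classSupp {y | y ∈ 𝐍(U) ∧ 3 ∣ orderOf y} ⊤) ≤
    Nat.card G * ({j | j ∈ 𝐍(U) ∧ Inv j}.ncard * {j | j ∈ 𝐍(U) ∧ Inv j}.ncard) := by
  rw [← r.cardB]
  refine (pr_conj (Y := {y | y ∈ 𝐍(U) ∧ 3 ∣ orderOf y}) fun m hm y hy =>
    ⟨P5.cj hm hy.1, by rw [orderOf_cj]; exact hy.2⟩).trans
    (Nat.mul_le_mul_left _ (pr_sub fun j j' hj hj' h => ?_))
  obtain ⟨u, hu, h1, -⟩ := exists_pw Nat.prime_three h.2
  have h2 : j ∈ 𝐍(U) := ti r (mem_U r (zpowers_le.2 h.1 hu) h1)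
    (ne_one_of_prime (h1 ▸ Nat.prime_three)) (mem_U r (zpowers_le.2 h.1
      ((mem_normalizer_iff.1 (norm_zp_of_inv hj (inverts hj hj')) u).1 hu))
      (by rwa [orderOf_cj]))
  exact ⟨h2, hj.mul_cancel_left j' ▸ mul_mem h2 h.1⟩

variable (F : Fr 𝐂[t] L t q s s0)
include F

theorem phi1 : 𝐨(Phi 𝐂[t] s s0) = 1 := by
  have := F.card
  rwa [sup_comm, ← r.exact, eq_comm, mul_eq_left₀ (card_ne_zero _)] at this

theorem p3 : F.p = 3 :=
  ((Nat.prime_dvd_prime_iff_eq Nat.prime_three F.hp).1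
    (Nat.prime_three.dvd_of_dvd_pow (F.hq ▸ three_q r))).symm

theorem ja : JA G q 3 F.k F.l 1 := by
  have := ja_of r.toJRF F (by have := r.big; omega) fun r' hr hd =>
    absurd (Nat.dvd_one.1 (phi1 r F ▸ hd)) hr.one_lt.ne'
  rwa [phi1 r F, p3 r F] at this

theorem hk : q + 1 = 4 * F.k := (ja r F).eps_three rfl

theorem hl : q = 2 * F.l + 1 := by
  have := hk r F
  rcases F.toL2F.ep.eps with e | e <;> omega

theorem ree_P : ∃ U', Ree t L U' q ∧ F.P ≤ U' := by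
  obtain ⟨g, -, hg⟩ := (sylU r).exists_le_conj Nat.prime_three
    (p3 r F ▸ elemAb_isPGroup F.eaP) le_top
  have h1 : ∀ u ∈ U ^ᵍ g, u ≠ 1 → 𝐂[u] ≤ 𝐍(U ^ᵍ g) := by
    rintro _ ⟨u, hu, rfl⟩ u1
    rw [norm_conj]
    exact (cent1_conj u g).trans_le (conj_mono (r.ti u hu fun e => u1 (by rw [e, map_one])) g)
  obtain ⟨u, hu, u1⟩ := (bot_or_exists_ne_one F.P).resolve_left fun e => by
    have := F.cardP
    have := r.big
    rw [e, card_bot] at *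
    omega
  exact ⟨_, ⟨r.toJR, r.pow, r.big, r.card, (card_conj U g).trans r.cardU, by
    rw [norm_conj, card_conj, r.cardB], h1 u (hg hu) u1
      (mem_cent1_comm.1 (r.normal.1 (F.PL hu))), h1⟩, hg⟩

theorem iB (hP : F.P ≤ U) : {j | j ∈ 𝐍(U) ∧ Inv j}.ncard ≤ q ^ 2 := by
  have ht := P6.inv_of_orderOf r.inv
  have ep := F.toL2F.ep
  have cB : 𝐨(𝐍(U)) = 2 * (q * F.l) * q ^ 2 := by
    rw [r.cardB, show q - 1 = 2 * F.l by have := hl r F; omega]; ring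
  have h1 : IsSyl 2 (zpowers t) 𝐍(U) := ⟨zpowers_le.2 r.tB, ht.isPGroup, fun h => by
    have h2 := H1.card_mul_relIndex (zpowers_le.2 r.tB)
    rw [ht.card_zpowers, cB, mul_assoc, Nat.mul_right_inj two_ne_zero] at h2
    exact ((ep.oddq.mul ep.oddl).mul ep.oddq.pow).not_two_dvd_nat (h2 ▸ h)⟩
  have h2 : {j | j ∈ 𝐍(U) ∧ Inv j}.ncard ≤ 𝐂[t].relIndex 𝐍(U) := by
    rw [← P6.ncard_class]
    refine Set.ncard_le_ncard fun j hj => ?_
    obtain ⟨g, hg, h3⟩ := h1.exists_le_conj Nat.prime_two hj.2.isPGroup (zpowers_le.2 hj.1)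
    obtain ⟨a, ha, e⟩ := mem_conj'.1 (h3 (mem_zpowers j))
    rcases ht.mem_zpowers_iff.1 ha with rfl | rfl
    · exact absurd (by simpa using e.symm) hj.2.ne
    · exact ⟨g, hg, e⟩
  obtain ⟨u, hu, u1⟩ := (bot_or_exists_ne_one F.P).resolve_left fun e => by
    have := F.cardP
    have := r.big
    rw [e, card_bot] at *
    omega
  have h3 : F.T ≤ 𝐍(F.P) := by
    rcases F.eps with e | e
    · have := hk r F; omega
    · exact e.2.2 ▸ (HL F.toL2F).trans inf_le_right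
  have h4 : F.T ⊔ F.P ≤ L := sup_le F.TL F.PL
  have h5 := two_mul_le (B := 𝐍(U) ⊓ 𝐂[t]) (le_inf (sup_le (fun g hg => ti r (hP hu) u1
    (hP ((mem_normalizer_iff.1 (h3 hg) u).1 hu))) (hP.trans (le_norm_self U)))
    (h4.trans r.normal.1)) ⟨r.tB, self_mem_cent1 t⟩ fun e => r.toJRF.not_mem (h4 e)
  rw [H1.card_sup_of_inf_eq_bot h3 (H1.inf_eq_bot_of_coprime' (by
    rw [F.cardT, F.cardP]; exact ep.cop_ql.symm)), F.cardT, F.cardP, mul_comm F.l] at h5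
  have h6 := H1.card_mul_relIndex (inf_le_left : 𝐍(U) ⊓ 𝐂[t] ≤ 𝐍(U))
  rw [inf_relIndex_left, cB] at h6
  exact h2.trans (Nat.le_of_mul_le_mul_left ((Nat.mul_le_mul_right _ h5).trans h6.le)
    (by have := ep.oddq.pos; have := ep.oddl.pos; positivity))

theorem centT {w : G} (hw : w ∈ F.T) (w1 : w ≠ 1) : 𝐂[w] = F.T ⊔ zpowers t := by
  have h1 := (ja r F).alpha (P6.inv_of_orderOf r.inv) (eq_LL F ▸ F.TL hw) w1
    (F.cardT ▸ orderOf_dvd_card_of_mem hw)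
  have h2 : F.T ⊔ zpowers t ≤ 𝐂[w] := sup_le ((J5.commT F).trans (cent_le_cent1 hw))
    (zpowers_le.2 (mem_cent1_comm.1 (J5.TC F hw)))
  have h3 : t ∈ F.T ⊔ zpowers t := mem_sup_right (mem_zpowers t)
  refine le_antisymm (fun g hg => ?_) h2
  rcases F.lm.mem_sup.1 (sup_comm (zpowers t) L ▸ r.exact ▸ h1 hg) with e | e
  · exact mem_sup_left (F.centT w hw w1 ▸ mem_inf.2 ⟨e, hg⟩)
  · exact (mul_mem_cancel_left h3).1
      (mem_sup_left (F.centT w hw w1 ▸ mem_inf.2 ⟨e, mul_mem (h2 h3) hg⟩))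

theorem halfT : J5.Half (F.T ⊔ zpowers t) F.T t :=
  J5.half_sup r.toJRF.tt (fun e => r.toJRF.not_mem (F.TL e)) (J5.TC F)

theorem exists_l {w : G} (hr : (orderOf w).Prime) (h : orderOf w ∣ F.l) :
    ∃ g, 𝐂[w] ^ᵍ g = F.T ⊔ zpowers t := by
  have ht := P6.inv_of_orderOf r.inv
  obtain ⟨g, hg⟩ := into hr (J5.not_dvd_index r.toJRF F (fun w hw w1 => (centT r F hw w1).trans_le
    (halfT r F).cent) (by rw [phi1 r F]; exact Nat.coprime_one_left _) hr h)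
  have h1 : g * w * g⁻¹ ∈ L := eq_LL F ▸ (ja r F).mem_L ht hg (by
    rw [orderOf_cj, mul_one]
    exact (Nat.coprime_two_right.2 F.toL2F.ep.oddl).coprime_dvd_left h)
  obtain ⟨c, -, hc⟩ := exists_T F.toL2F h1 hr h (by rw [orderOf_cj])
  obtain ⟨y, hy, e⟩ := mem_conj'.1 (hc ▸ mem_inf.2 ⟨h1, self_mem_cent1 _⟩)
  refine ⟨c⁻¹ * g, ?_⟩
  rw [← cent1_conj, show c⁻¹ * g * w * (c⁻¹ * g)⁻¹ = c⁻¹ * (g * w * g⁻¹) * c by group, ← e,
    show c⁻¹ * (c * y * c⁻¹) * c = y by group]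
  exact centT r F hy fun e' => ne_one_of_prime hr (by simpa [e'] using e.symm)

theorem prl : 2 * pr (classSupp {y | y ∈ F.T ⊔ zpowers t ∧ y * y ≠ 1} ⊤) + 2 * Nat.card G ≤
    Nat.card G * (2 * F.l) := by
  have ht := P6.inv_of_orderOf r.inv
  have hT := halfT r F
  have c : 𝐨((F.T ⊔ zpowers t : Subgroup G)) = 2 * F.l := by rw [hT.card, F.cardT]
  have h1 := pr_type (le_refl 𝐍(F.T ⊔ zpowers t)) (c := 2 * F.l) fun y hy y1 => by
    rw [← c, ← centT r F (hT.sq_mem hy) (by rwa [sq])]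
    exact card_le_of_le (cent_zpowers y ▸ cent_le_cent1 (pow_mem (mem_zpowers y) 2))
  have l1 : 1 < F.l := by have := hl r F; have := r.big; omega
  obtain ⟨w, hw, w1⟩ := (bot_or_exists_ne_one F.T).resolve_left
    ((one_lt_card_iff_ne_bot _).1 (F.cardT ▸ l1))
  have h2 := two_mul_le (le_norm_self (F.T ⊔ zpowers t)) (zpowers_le.1 (H1.le_normalizer_sup
    (zpowers_le.2 (J5.s0T F)) (zpowers_le.2 (J5.s0t F))))
    fun e => w1 (P6.eq_one_of_eq_inv (P6.odd_orderOf_of_mem (J5.oddT F) hw) (by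
      rw [← F.invT w hw, mem_cent1_iff_conj.1 (centT r F hw w1 ▸ e)]))
  have h3 : {y | y ∈ F.T ⊔ zpowers t ∧ y * y ≠ 1}.ncard ≤ 2 * F.l - 2 := by
    rw [← c, ← ht.card_zpowers]
    exact ncard_le_sub le_sup_right fun y hy => ⟨hy.1, fun e => hy.2 (by
      rcases ht.mem_zpowers_iff.1 e with rfl | rfl
      exacts [one_mul 1, ht.sq])⟩
  have h4 := (Nat.mul_le_mul_right _ h2).trans (h1.trans
    (Nat.mul_le_mul_left _ (Nat.mul_le_mul_left _ h3)))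
  obtain ⟨n, hn⟩ : ∃ n, F.l = n + 1 := ⟨F.l - 1, by omega⟩
  rw [c, hn, show 2 * (n + 1) - 2 = 2 * n by omega] at h4
  rw [hn]
  exact Nat.le_of_mul_le_mul_left (c := 2 * (n + 1)) (by linarith) (by omega)

theorem kc {a b y : G} (v : V4 a b) (hy : y ∈ 𝐂(V2 a b)) (hr : (orderOf y).Prime)
    (rk : orderOf y ∣ F.k) : 𝐂[y] ≤ 𝐂(V2 a b) := by
  have h := ja r F
  have yW := mem_cent_iff_cent1.1 hy
  rcases npc_or_tri v (yW V4.t_mem) (yW V4.s_mem) (h.k_eight v hy hr rk) with h1 | ⟨x, hx, tri⟩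
  · refine h1.trans (sup_le (gen4 v (odd_Od _) (yW.trans (Od_normal _).2) fun c d v1 e => ?_)
      (V2_le_cent v))
    rw [← e, cent_V2]
    exact le_inf inf_le_right ((inf_le_inf_right _ (Od_normal _).1).trans
      (h.k_cent v1 (e ▸ hy) hr rk))
  obtain ⟨u, -, ou, h1⟩ := exists_pw Nat.prime_three (three_dvd_tri tri v)
  have h2 := (orderOf_dvd_card_of_mem (h1 (mem_cent1_comm.1 hx))).trans (cent3 r ou)
  rw [show q - 1 = 2 * F.l by have := hl r F; omega] at h2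
  refine absurd (Nat.eq_one_of_dvd_coprimes (Nat.Coprime.mul_right ?_ (Nat.Coprime.mul_right
    (Nat.coprime_two_right.2 h.ep.oddk) h.ep.cop_kl.coprime_mul_left)) rk h2) hr.one_lt.ne'
  exact h.ep.cop_qk.coprime_mul_left_right.symm.pow_right 3

theorem exists_k {a b w : G} (v : V4 a b) (hr : (orderOf w).Prime) (rk : orderOf w ∣ F.k) :
    ∃ g, 𝐂[w] ^ᵍ g ≤ 𝐂(V2 a b) := by
  have ht := P6.inv_of_orderOf r.inv
  have h := ja r F
  obtain ⟨g, hg⟩ := into hr (h.k_hall ht hr rk)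
  rw [← orderOf_cj g] at hr rk
  obtain ⟨u, v1, hu⟩ := h.exists_v4_k ht (h.mem_L ht hg (h.cop_k.coprime_dvd_left rk)) hr rk
  obtain ⟨c, -, hc⟩ := h.conj4 v1 v
  refine ⟨c * g, ?_⟩
  rw [← conj_conj, ← cent1_conj, ← hc, cent_conj]
  exact conj_mono (kc r F v1 (by rw [cent_V2]; exact ⟨hg, hu⟩) hr rk) c

theorem prk {a b : G} (v : V4 a b) :
    6 * pr (classSupp {y | y ∈ 𝐂(V2 a b) ∧ y * y ≠ 1} ⊤) + 4 * Nat.card G ≤
      Nat.card G * (4 * F.k) := by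
  have h := ja r F
  obtain ⟨R, cR, oR, RW, h1, -⟩ := h.exists_U v
  obtain ⟨j, hj, aL, bL⟩ := h.exists_t v
  obtain ⟨x, -, x3, tri⟩ := h.exists_x v hj aL bL
  have jW := h.mem_cent_V aL bL
  have AW : V2 a b ⊔ R ≤ 𝐂(V2 a b) := sup_le (V2_le_cent v) RW
  have cA : 𝐨((V2 a b ⊔ R : Subgroup G)) = 4 * F.k := by
    rw [H1.card_sup_of_inf_eq_bot ((cent_comm.1 RW).trans (cent_le_norm R))
      (H1.inf_eq_bot_of_coprime' (cop4 v (oR ▸ h.ep.oddk))), v.card, oR]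
  have cW := Nat.le_of_dvd (by have := h.ep.oddk.pos; positivity) (h.card_W v)
  have key : ∀ w ∈ R, (orderOf w).Prime → 𝐂[w] = V2 a b ⊔ R ∧ j ∉ 𝐂[w] := fun w hw hr => by
    have rk : orderOf w ∣ F.k := oR ▸ orderOf_dvd_card_of_mem hw
    have h2 := h.k_inv v (RW hw) hr rk jW hj (h.not_mem_V hj aL bL)
    have h3 := two_mul_le (kc r F v (RW hw) hr rk) jW h2
    exact ⟨(H1.eq_of_le_of_card_le (sup_le (mem_cent_iff_cent1.1 (RW hw))
      ((isMulComm_iff_le_cent.1 (isMulComm_of_isCyclic cR)).trans (cent_le_cent1 hw)))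
      (by omega)).symm, h2⟩
  have h2 : ∀ y ∈ 𝐂(V2 a b), y * y ≠ 1 → 𝐂[y] ≤ V2 a b ⊔ R := fun y hy y1 => by
    obtain ⟨m, hm, e⟩ := exists_odd_pow h.e8 y
    obtain ⟨r', hr, hd⟩ := Nat.exists_prime_and_dvd (mt orderOf_eq_one_iff.1 y1)
    obtain ⟨w, hw, rfl, h3⟩ := exists_pw hr hd
    refine le_trans (le_trans ?_ h3) (key w (zpowers_le.2 (h1 _ (mul_mem hy hy)
      ((Nat.coprime_two_right.2 hm).coprime_dvd_left (orderOf_dvd_of_pow_eq_one ?_))) hw) hr).1.le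
    · exact cent_zpowers y ▸ cent_le_cent1 (mul_mem (mem_zpowers y) (mem_zpowers y))
    · rwa [(Commute.refl y).mul_pow]
  have k1 : 1 < F.k := by have := hk r F; have := r.big; omega
  obtain ⟨r', hr, hd⟩ := Nat.exists_prime_and_dvd k1.ne'
  obtain ⟨w, hw, rfl⟩ := exists_mem_orderOf_eq_prime hr (oR ▸ hd)
  have h3 := two_mul_le AW jW ((key w hw hr).1 ▸ (key w hw hr).2)
  have xW : x ∉ 𝐂(V2 a b) := fun e =>
    tri.not_commute v (mem_cent1_iff_commute.1 (mem_cent_iff_cent1.1 e V4.t_mem))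
  have ox : 𝐨(zpowers x) = 3 := by
    rw [Nat.card_zpowers]
    exact orderOf_eq_prime x3 fun e => xW (e ▸ one_mem _)
  have nx : zpowers x ≤ 𝐍(𝐂(V2 a b)) :=
    zpowers_le.2 (H1.normalizer_le_normalizer_centralizer _ (tri.mem_norm v))
  have h4 := pr_type (sup_le nx (le_norm_self _)) (c := 4 * F.k) fun y hy y1 =>
    cA ▸ card_le_of_le (h2 y hy y1)
  rw [H1.card_sup_of_inf_eq_bot nx ((inf_eq_bot_or_le_of_card_prime (ox ▸ Nat.prime_three)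
    _).resolve_right fun e => xW (e (mem_zpowers x))), ox] at h4
  have h5 : {y | y ∈ 𝐂(V2 a b) ∧ y * y ≠ 1}.ncard ≤ 4 * F.k - 4 := by
    rw [← cA, ← v.card]
    exact ncard_le_sub le_sup_left fun y hy => ⟨h2 y hy.1 hy.2 (self_mem_cent1 y),
      fun e => hy.2 (v.sq e)⟩
  have h6 := (Nat.mul_le_mul_right _ (Nat.mul_le_mul_left 3 h3)).trans (h4.trans
    (Nat.mul_le_mul_left _ (Nat.mul_le_mul_left _ h5)))
  obtain ⟨n, hn⟩ : ∃ n, F.k = n + 1 := ⟨F.k - 1, by omega⟩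
  rw [cA, hn, show 4 * (n + 1) - 4 = 4 * n by omega] at h6
  rw [hn]
  exact Nat.le_of_mul_le_mul_left (c := 4 * (n + 1)) (by linarith) (by omega)

end

end Cfsg.Agent.P15.Re
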