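/-
P15, Ree groups: every prime dividing `q² - q + 1` is the order of a strongly real element.
-/
import Cfsg.Agent.P15.Ree2

set_option autoImplicit false
set_option linter.unusedSectionVars false

namespace Cfsg.Agent.P15.Re

open Subgroup Cfsg Cfsg.Agent Cfsg.Agent.FT Cfsg.Agent.P7 Cfsg.Agent.P7.Ax
open Cfsg.Agent.P5 (V4 Tri)
open Cfsg.Agent.P6 (Inv)

universe u

/-- The factorization `q² - q + 1 = a b`. -/
def NP (q a b : ℕ) : Prop :=
  ∃ m : ℤ, (q : ℤ) = 3 * m ^ 2 ∧ (a : ℤ) = q + 1 + 3 * m ∧ (b : ℤ) = q + 1 - 3 * m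

namespace NP

variable {q a b k l : ℕ} (h : NP q a b)
include h

theorem symm : NP q b a := by
  obtain ⟨m, h1, h2, h3⟩ := h
  exact ⟨-m, by linarith, by linarith, by linarith⟩

theorem mul : a * b + q = q ^ 2 + 1 := by
  obtain ⟨m, h1, h2, h3⟩ := h
  zify
  rw [h2, h3]
  linear_combination 3 * h1

theorem add : a + b = 2 * q + 2 := by
  obtain ⟨m, h1, h2, h3⟩ := h
  omega

theorem eight (big : 27 ≤ q) : 8 ≤ a := by
  obtain ⟨m, h1, h2, h3⟩ := h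
  by_contra! h4
  have h5 : m ≤ -7 := by omega
  have h6 : (a : ℤ) < 8 := by omega
  nlinarith

variable (hk : q + 1 = 4 * k) (hl : q = 2 * l + 1)
include hk hl

theorem cop : (q ^ 3 * (4 * k) * (2 * l)).Coprime (a * b) := by
  have h0 := h.mul
  obtain ⟨m, h1, -⟩ := h
  zify at h0 hk hl
  refine (Nat.Coprime.mul_left (Nat.Coprime.pow_left 3 ?_) ?_).mul_left ?_ <;>
    refine Nat.isCoprime_iff_coprime.1 ?_ <;> push_cast
  · exact ⟨1 - q, 1, by linear_combination h0⟩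
  · exact ⟨1 + m ^ 2 * (q - 2), -m ^ 2, by
      linear_combination h1 - m ^ 2 * h0 - (1 + m ^ 2 * (q - 2)) * hk⟩
  · exact ⟨-q, 1, by linear_combination h0 + q * hl⟩

theorem six : q ^ 3 * (4 * k) * (2 * l) * a ≡ 6 [MOD b] := by
  obtain ⟨m, h1, h2, h3⟩ := h
  zify at hk hl
  refine (Nat.modEq_iff_dvd.2 ⟨a ^ 2 * ((q + 1) * (q ^ 2 - 1) - 1) - (q + 4 + 6 * m), ?_⟩).symm
  push_cast
  rw [← hk, show (2 * l : ℤ) = q - 1 by omega, h2, h3, h1]
  ring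

theorem seven {r : ℕ} (hr : r.Prime) (hd : r ∣ a * b) : 7 ≤ r := by
  have h0 := h.mul
  have h1 := (h.cop hk hl).coprime_dvd_right hd
  obtain ⟨m, h2, -⟩ := h
  by_contra! h3
  have h4 := Nat.pow_mod q 2 5
  interval_cases r
  · norm_num at hr
  · norm_num at hr
  · exact Nat.not_coprime_of_dvd_of_dvd one_lt_two ((dvd_mul_right 2 l).mul_left _) dvd_rfl h1
  · exact Nat.not_coprime_of_dvd_of_dvd (by norm_num) ((((show 3 ∣ q by omega).trans
      (dvd_pow_self q three_ne_zero)).mul_right _).mul_right _) dvd_rfl h1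
  · norm_num at hr
  · rcases (by omega : q % 5 = 0 ∨ q % 5 = 1 ∨ q % 5 = 2 ∨ q % 5 = 3 ∨ q % 5 = 4) with
      e | e | e | e | e <;> rw [e] at h4 <;> omega
  · norm_num at hr

theorem cop' : a.Coprime b := Nat.coprime_of_dvd fun r hr h1 h2 => by
  have h3 := ((h.six hk hl).of_dvd h2).symm.dvd_iff dvd_rfl
  have h4 := h.seven hk hl hr (h1.mul_right b)
  have := Nat.le_of_dvd (by norm_num) (h3.2 (h1.mul_left _))
  omega

theorem arith {c P1 P2 P3 Pl Pk Z1 Z2 i g : ℕ} (big : 27 ≤ q) (hc : 7 * c ≤ a)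
    (hi : i = q ^ 2 * (a * b)) (hg : g = q ^ 3 * (4 * k) * (2 * l) * (a * b))
    (h0 : i * i ≤ P1 + (P2 + (P3 + (Pl + (Pk + (Z1 + Z2)))))) (h1 : P1 ≤ i) (h2 : P2 ≤ g)
    (h3 : 2 * l * P3 ≤ g * q) (h4 : 2 * Pl + 2 * g ≤ g * (2 * l))
    (h5 : 6 * Pk + 4 * g ≤ g * (4 * k)) (h6 : 2 * Z1 + g ≤ g * c) (h7 : 6 * Z2 + g ≤ g * b) :
    False := by
  have e0 := h.mul
  have e1 := h.add
  have e2 := h.eight big
  have e3 := h.symm.eight big
  have e4 := Nat.mul_le_mul_left g hc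
  have i0 : 0 < i := by rw [hi]; positivity
  zify at *
  rw [← hk] at h5 hg
  rw [show (2 * l : ℤ) = q - 1 by omega] at h3 h4 hg
  rw [show (b : ℤ) = 2 * q + 2 - a by omega] at h7
  have q1 : (0 : ℤ) < q - 1 := by omega
  have e5 : (42 : ℤ) * (P2 + Pl + Pk + Z1 + Z2) ≤ g * (42 * q - 56 - 4 * a) := by linarith
  have e6 := mul_le_mul_of_nonneg_left e5 q1.le
  have e7 := mul_le_mul_of_nonneg_left (h0.trans (add_le_add_left h1 _)) q1.le
  have e8 : (g : ℤ) = q * (q + 1) * (q - 1) * i := by rw [hg, hi]; ring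
  have e9 : (i : ℤ) * i = i * (q ^ 2 * (q ^ 2 - q + 1)) := by
    rw [show (q : ℤ) ^ 2 - q + 1 = a * b by linarith, ← hi]
  have e10 : (q - 1) * i * ((4 * a - 28) * q ^ 3 + 42 * q ^ 2 - (56 + 4 * a) * q - 42 : ℤ) ≤ 0 := by
    rw [e9] at e7
    rw [e8] at e6 h3
    linarith
  have e11 : (0 : ℤ) ≤ (a - 8) * (q * (q ^ 2 - 1)) :=
    mul_nonneg (by omega) (mul_nonneg (by omega) (by nlinarith))
  exact absurd e10 (not_le.2 (mul_pos (mul_pos q1 i0) (by nlinarith)))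

end NP

variable {G : Type u} [Group G] [Finite G] {t s s0 : G} {L U : Subgroup G} {q a b : ℕ}
  (r : Ree t L U q) (F : Fr 𝐂[t] L t q s s0)
include r F

theorem cardG (h : NP q a b) : Nat.card G = q ^ 3 * (4 * F.k) * (2 * F.l) * (a * b) := by
  have h1 := h.mul
  have h2 := hk r F
  have h3 := hl r F
  rw [r.card, ← h2, show q - 1 = 2 * F.l by omega]
  zify at h1 ⊢
  linear_combination -(q ^ 3 * (2 * F.l) * (q + 1) : ℤ) * h1

theorem idx (h : NP q a b) : 𝐂[t].index = q ^ 2 * (a * b) := by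
  have h1 := card_mul_index 𝐂[t]
  have h2 := card_ne_zero 𝐂[t]
  rw [(ja r F).card t (P6.inv_of_orderOf r.inv)] at h1 h2
  exact Nat.eq_of_mul_eq_mul_left (Nat.pos_of_ne_zero h2) (by rw [h1, cardG r F h]; ring)

theorem split : ∃ a b, NP q a b ∧ ∀ (x : G) (p p' : ℕ), p.Prime → p'.Prime → p ∣ a → p' ∣ b →
    Odd (orderOf x) → p ∣ orderOf x → ¬ p' ∣ orderOf x := by
  have h1 := hk r F
  have h2 := hl r F
  have big := r.big
  have ht := P6.inv_of_orderOf r.inv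
  obtain ⟨m, hm⟩ : ∃ m, q = 3 * m ^ 2 := by
    obtain ⟨n, hn⟩ := F.oddn
    exact ⟨3 ^ n, by rw [F.hq.trans (by rw [p3 r F, hn])]; ring⟩
  obtain ⟨b, hb⟩ : ∃ b, q + 1 = 3 * m + b := Nat.exists_eq_add_of_le (by nlinarith)
  obtain ⟨a, ha⟩ : ∃ a, a = q + 1 + 3 * m := ⟨_, rfl⟩
  have h : NP q a b := ⟨m, by exact_mod_cast hm, by omega, by omega⟩
  refine ⟨a, b, h, fun x p p' hp hp' pa pb ox px px' => ?_⟩
  have hφ : 𝐨(Phi 𝐂[t] s s0).Coprime 𝐨(L) := by rw [phi1 r F]; exact Nat.coprime_one_left _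
  have h3 := (ja r F).not_three_dvd_k ht
  obtain ⟨-, -, -, -, _, _, X, _, g, g', n, n', -, -, -, -, o⟩ := j5' r.toJRF F hφ
    (fun w hw w1 => (centT r F hw w1).trans_le (halfT r F).cent)
    (hl_of F (by omega) h3 hφ (Or.inl (card_eq_one.1 (phi1 r F)))) h3
    (Nat.coprime_of_dvd fun r' hr' e1 e2 => (ja r F).k_hall ht hr' e2 e1)
    (Or.inr (idx r F h ▸ (dvd_pow_self q two_ne_zero).mul_right _))
  have cG := (card_top (G := G)).trans (cardG r F h)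
  have cop := h.cop h1 h2
  have c1 : ∀ {c d e : ℕ}, e ∣ c → c.Coprime d → c ∣ a * b → (m * 6 * q ^ 2 * (4 * F.k) * d).Coprime e :=
    fun {c d e} e1 e2 e3 => (Nat.Coprime.mul_left ((cop.coprime_dvd_right e3).coprime_dvd_left
      ⟨m * F.l, by nth_rewrite 1 [pow_succ' q 2]; nth_rewrite 1 [hm]; ring⟩)
      e2.symm).coprime_dvd_right e1
  have c2 : ∀ c d, c * d = a * b →
      𝐨((⊤ : Subgroup G)) = F.l * m * c * (m * 6 * q ^ 2 * (4 * F.k) * d) := fun c d e => by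
    rw [cG, ← e, pow_succ' q 2]; nth_rewrite 1 [hm]; ring
  have v1 : ∀ χ : G → ℂ, Dirr ⊤ χ → χ 1 = (F.l * m * a : ℤ) → χ x = 0 := fun χ hχ e =>
    J5.dirr_vanish hp hχ (Or.inl (by rw [e]; push_cast; rfl)) (c2 a b rfl)
      (c1 pa (h.cop' h1 h2) (dvd_mul_right a b)) px
  have v2 : ∀ χ : G → ℂ, Dirr ⊤ χ → χ 1 = (-(F.l * m * b) : ℤ) → χ x = 0 := fun χ hχ e =>
    J5.dirr_vanish hp' hχ (Or.inr (by rw [e]; push_cast; rfl)) (c2 b a (mul_comm b a))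
      (c1 pb (h.cop' h1 h2).symm (dvd_mul_left b a)) px'
  have v3 : X x = 0 := J5.dirr_vanish hp o.dX (n := a * b) (Or.inr (by
    have := congrArg (Nat.cast : ℕ → ℂ) h.mul
    rw [o.X1]
    push_cast at this ⊢
    linear_combination this)) (cG.trans (mul_comm _ _))
    (cop.coprime_dvd_right (pa.mul_right b)) px
  have s1 := o.sum
  have s2 := o.disc
  have s3 := o.odd1 x ox
  zify at hm ha hb h2
  have s4 : n - n' = m * (2 * F.l * (q + 1)) ∨ n - n' = -(m * (2 * F.l * (q + 1))) :=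
    sq_eq_sq_iff_eq_or_eq_neg.1 (mul_left_cancel₀ three_ne_zero
      (by linear_combination s2 + (2 * F.l * (q + 1)) ^ 2 * hm))
  rcases s4 with s4 | s4
  · rw [v3, v1 g o.dg (o.g1.trans (congrArg _ (mul_left_cancel₀ two_ne_zero (by
      linear_combination s1 + s4 - 2 * F.l * m * ha + 2 * F.l * hm + q * h2)))),
      v2 g' o.dg' (o.g1'.trans (congrArg _ (mul_left_cancel₀ two_ne_zero (by
      linear_combination s1 - s4 - 2 * F.l * m * hb + 2 * F.l * hm + q * h2))))] at s3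
    simp at s3
  · rw [v3, v1 g' o.dg' (o.g1'.trans (congrArg _ (mul_left_cancel₀ two_ne_zero (by
      linear_combination s1 - s4 - 2 * F.l * m * ha + 2 * F.l * hm + q * h2)))),
      v2 g o.dg (o.g1.trans (congrArg _ (mul_left_cancel₀ two_ne_zero (by
      linear_combination s1 + s4 - 2 * F.l * m * hb + 2 * F.l * hm + q * h2))))] at s3
    simp at s3

theorem odd_cases {p : ℕ} (hp : p.Prime) (p2 : p ≠ 2) (hd : p ∣ q ^ 3 * (4 * F.k) * (2 * F.l)) :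
    p = 3 ∨ p ∣ F.k ∨ p ∣ F.l := by
  have h2 : ¬ p ∣ 2 := fun e => p2 ((Nat.prime_dvd_prime_iff_eq hp Nat.prime_two).1 e)
  rcases hp.dvd_mul.1 hd with e | e
  · rcases hp.dvd_mul.1 e with e | e
    · exact Or.inl ((ja r F).eq_p hp (hp.dvd_of_dvd_pow e))
    · exact Or.inr (Or.inl ((hp.dvd_mul.1 e).resolve_left fun e =>
        h2 (hp.dvd_of_dvd_pow (n := 2) e)))
  · exact Or.inr (Or.inr ((hp.dvd_mul.1 e).resolve_left h2))

theorem cent_dvd {w : G} (hp : (orderOf w).Prime)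
    (hd : orderOf w ∣ q ^ 3 * (4 * F.k) * (2 * F.l)) : 𝐨(𝐂[w]) ∣ q ^ 3 * (4 * F.k) * (2 * F.l) := by
  by_cases p2 : orderOf w = 2
  · rw [(ja r F).card w (P6.inv_of_orderOf p2)]
    exact ⟨q ^ 2, by ring⟩
  rcases odd_cases r F hp p2 hd with e | e | e
  · refine (cent3 r e).trans ⟨4 * F.k, ?_⟩
    rw [show q - 1 = 2 * F.l by have := hl r F; omega]
    ring
  · obtain ⟨g, hg⟩ := exists_k r F F.toL2F.v4 hp e
    exact (card_conj 𝐂[w] g ▸ FT.card_dvd_of_le hg).trans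
      (((ja r F).card_W F.toL2F.v4).trans ⟨q ^ 3 * F.l, by ring⟩)
  · obtain ⟨g, hg⟩ := exists_l r F hp e
    rw [← card_conj 𝐂[w] g, hg, (halfT r F).card, F.cardT]
    exact dvd_mul_left _ _

theorem nu (h : NP q a b) (y : G) (y1 : y ≠ 1) (hy : orderOf y ∣ a * b) : 𝐨(𝐂[y]) ∣ a * b := by
  refine Nat.Coprime.dvd_of_dvd_mul_left (Nat.coprime_of_dvd fun p hp h1 h2 => ?_)
    (cardG r F h ▸ card_subgroup_dvd_card _)
  obtain ⟨w, hw, rfl⟩ := exists_mem_orderOf_eq_prime hp h1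
  exact y1 (orderOf_eq_one_iff.1 (Nat.eq_one_of_dvd_coprimes (h.cop (hk r F) (hl r F))
    ((orderOf_dvd_card_of_mem (mem_cent1_comm.1 hw)).trans (cent_dvd r F hp h2)) hy))

theorem types (h : NP q a b) {x : G} (x1 : x ≠ 1) : x ∈ classSupp {t} ⊤ ∨
    x ∈ classSupp {y | y ∈ 𝐍(U) ∧ 3 ∣ orderOf y} ⊤ ∨
    x ∈ classSupp {y | y ∈ F.T ⊔ zpowers t ∧ y * y ≠ 1} ⊤ ∨
    x ∈ classSupp {y | y ∈ 𝐂(V2 s s0) ∧ y * y ≠ 1} ⊤ ∨ x ∈ Zc G (a * b) := by
  by_cases xx : x * x = 1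
  · obtain ⟨g, hg⟩ := (ja r F).conj ⟨x1, xx⟩ (P6.inv_of_orderOf r.inv)
    exact Or.inl (mem_cl hg)
  by_cases hc : (orderOf x).Coprime (q ^ 3 * (4 * F.k) * (2 * F.l))
  · exact Or.inr (Or.inr (Or.inr (Or.inr ⟨x1, nu r F h x x1
      (hc.dvd_of_dvd_mul_left (cardG r F h ▸ orderOf_dvd_natCard x))⟩)))
  obtain ⟨p, hp, p2, h1, h2⟩ : ∃ p : ℕ, p.Prime ∧ p ≠ 2 ∧ p ∣ orderOf x ∧
      p ∣ q ^ 3 * (4 * F.k) * (2 * F.l) := by
    obtain ⟨p, hp, h1, h2⟩ := Nat.Prime.not_coprime_iff_dvd.1 hc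
    obtain ⟨w, -, rfl, h3⟩ := exists_pw hp h1
    by_cases p2 : orderOf w = 2
    swap
    · exact ⟨_, hp, p2, h1, h2⟩
    obtain ⟨m, hm, e⟩ := exists_odd_pow r.e8 x
    obtain ⟨p, hp', hd⟩ := Nat.exists_prime_and_dvd (mt orderOf_eq_one_iff.1 xx)
    have h4 := hd.trans (sq x ▸ orderOf_pow_dvd 2)
    refine ⟨p, hp', ?_, h4, h4.trans ((orderOf_dvd_card_of_mem (h3 (self_mem_cent1 x))).trans
      (cent_dvd r F hp h2))⟩
    rintro rfl
    exact hm.not_two_dvd_nat (hd.trans (orderOf_dvd_of_pow_eq_one (by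
      rwa [(Commute.refl x).mul_pow])))
  obtain ⟨w, -, rfl, h3⟩ := exists_pw hp h1
  have h4 := conj_mem_conj (h3 (self_mem_cent1 x))
  rcases odd_cases r F hp p2 h2 with e | e | e
  · exact Or.inr (Or.inl (cl3 r (e ▸ h1)))
  · obtain ⟨g, hg⟩ := exists_k r F F.toL2F.v4 hp e
    exact Or.inr (Or.inr (Or.inr (Or.inl (mem_cl ⟨hg (h4 g), sq_ne xx⟩))))
  · obtain ⟨g, hg⟩ := exists_l r F hp e
    exact Or.inr (Or.inr (Or.inl (mem_cl ⟨hg ▸ h4 g, sq_ne xx⟩)))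

theorem real_of (hP : F.P ≤ U) (h : NP q a b) (hs : ∀ (x : G) (p p' : ℕ), p.Prime → p'.Prime →
    p ∣ a → p' ∣ b → Odd (orderOf x) → p ∣ orderOf x → ¬ p' ∣ orderOf x) {p : ℕ} (hp : p.Prime)
    (pa : p ∣ a) : ∃ u j : G, orderOf u = p ∧ j * j = 1 ∧ j * u * j = u⁻¹ := by
  by_contra! H
  have h1 := hk r F
  have h2 := hl r F
  have h7 : ∀ r : ℕ, r.Prime → r ∣ a * b → 7 ≤ r := fun _ => h.seven h1 h2
  have oN : Odd (a * b) := Nat.coprime_two_left.1 (Nat.prime_two.coprime_iff_not_dvd.2 fun e =>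
    absurd (h7 2 Nat.prime_two e) (by norm_num))
  have hN := nu r F h
  obtain ⟨c, rfl⟩ := pa
  have hI : {j : G | Inv j}.ncard = q ^ 2 * (p * c * b) := by
    rw [← idx r F h, ← relIndex_top_right, ← P6.ncard_class]
    exact congrArg Set.ncard (Set.ext fun j => ⟨fun hj => by
      simpa using (ja r F).conj (P6.inv_of_orderOf r.inv) hj,
        fun ⟨g, _, e⟩ => e ▸ (P6.inv_of_orderOf r.inv).conj g⟩)
  have un : ∀ S T : Set G, pr (S ∪ T) ≤ pr S + pr T := fun S T => pr_le_add fun _ _ _ _ h => h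
  have hZ : pr (Zc G (p * c * b)) ≤ pr (Zc G c) + pr (Zc G b) := pr_le_add fun j j' hj hj' hx => by
    obtain ⟨-, -, h3, h4⟩ := cc oN hN hx hj (inverts hj hj')
    by_cases e : 𝐨(𝐂[j * j']).Coprime (p * c)
    · exact Or.inr ⟨hx.1, e.dvd_of_dvd_mul_left hx.2⟩
    obtain ⟨p1, hp1, d1, d2⟩ := Nat.Prime.not_coprime_iff_dvd.1 e
    obtain ⟨u, hu, rfl⟩ := exists_mem_orderOf_eq_prime hp1 d1
    refine Or.inl ⟨hx.1, Nat.Coprime.dvd_of_dvd_mul_left (hp.coprime_iff_not_dvd.2 fun d => ?_).symm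
      (Nat.Coprime.dvd_of_dvd_mul_right (Nat.coprime_of_dvd fun p2 hp2 d3 d4 => ?_) hx.2)⟩
    · obtain ⟨v, hv, e⟩ := exists_mem_orderOf_eq_prime hp d
      exact H v j e hj.sq (h3 v hv)
    · obtain ⟨v, hv, rfl⟩ := exists_mem_orderOf_eq_prime hp2 d3
      have h5 := Commute.orderOf_mul_eq_mul_orderOf_of_coprime
        (Agent.L.commute_of_inverts hj.sq h3 hu hv)
        (((h.cop' h1 h2).coprime_dvd_left d2).coprime_dvd_right d4)
      exact hs (u * v) _ _ hp1 hp2 d2 d4 (oN.of_dvd_nat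
        ((orderOf_dvd_card_of_mem (mul_mem hu hv)).trans hx.2)) (h5 ▸ dvd_mul_right _ _)
        (h5 ▸ dvd_mul_left _ _)
  refine h.arith h1 h2 r.big (Nat.mul_le_mul_right c (h7 p hp ((dvd_mul_right p c).mul_right b)))
    hI (cardG r F h) (pr_univ.ge.trans ((pr_le_add fun j j' _ _ _ =>
      (eq_or_ne (j * j') 1).imp id (types r F h)).trans (add_le_add_right ((un _ _).trans
      (add_le_add_right ((un _ _).trans (add_le_add_right ((un _ _).trans (add_le_add_right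
      ((un _ _).trans (add_le_add_right hZ _)) _)) _)) _)) _))) pr_one ?_ ?_ (prl r F)
    (prk r F F.toL2F.v4) (half oN hN c ((dvd_mul_left c p).mul_right b))
    (sixth oN hN h7 (dvd_mul_left _ _) ((cardG r F h).trans (by ring)) (h.six h1 h2))
  · have h3 := (pr_conj (M := 𝐂[t]) (Y := {t}) fun m hm y hy =>
      hy.symm ▸ mem_cent1_iff_conj.1 hm).trans (Nat.mul_le_mul_left _
      (pr_le (c := 𝐨(𝐂[t])) fun y hy => hy ▸ le_rfl))
    rw [Set.ncard_singleton, mul_one, mul_comm (Nat.card G)] at h3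
    exact Nat.le_of_mul_le_mul_left h3 Nat.card_pos
  · have h3 := (pr3 r).trans (Nat.mul_le_mul_left _ (Nat.mul_le_mul (iB r F hP) (iB r F hP)))
    rw [show q - 1 = 2 * F.l by omega] at h3
    exact Nat.le_of_mul_le_mul_left (c := q ^ 3) (by linarith) (pow_pos (by omega) 3)

end Re

open P7

theorem ree_real {G : Type*} [Group G] [Finite G] {t : G} {L U : Subgroup G} {q : ℕ}
    (r : Ree t L U q) {p : ℕ} (hp : p.Prime) (hd : p ∣ q ^ 2 - q + 1) :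
    ∃ u j : G, orderOf u = p ∧ j * j = 1 ∧ j * u * j = u⁻¹ := by
  obtain ⟨s, s0, ⟨F⟩⟩ := r.toJRF.exists_fr
  obtain ⟨U', r', hP⟩ := Re.ree_P r F
  obtain ⟨a, b, h, hs⟩ := Re.split r F
  have h1 := h.mul
  have h2 : q ≤ q ^ 2 := Nat.le_self_pow two_ne_zero q
  rcases hp.dvd_mul.1 ((show q ^ 2 - q + 1 = a * b by omega) ▸ hd) with e | e
  · exact Re.real_of r' F hP h hs hp e
  · exact Re.real_of r' F hP h.symm (fun x p p' hp hp' h1 h2 ox h3 h4 =>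
      hs x p' p hp' hp h2 h1 ox h4 h3) hp e

end Cfsg.Agent.P15
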